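import Cfsg.Agent.Lib.PGroups.Basic
import Cfsg.Agent.Lib.PGroups.ClassTwo
import Cfsg.Agent.Lib.PGroups.RankBound
import Cfsg.Agent.Lib.Involutions2.NormalFour
import Mathlib

/-!
# `p`-central `p`-groups for odd `p`

A group is `p`-central if every element `x` with `x ^ p = 1` is central.
For odd `p`:
* `(y⁻¹ g y g⁻¹) ^ p = 1` for every `y` with `y ^ (p * p) = 1`;
* the number of generators is bounded by the rank of `Ω₁`.
-/

set_option autoImplicit false

namespace Cfsg.Agent.Lib.PCentral.Basic

open Subgroup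
open scoped commutatorElement

variable {p : ℕ} [hpf : Fact p.Prime]

/-- The `p`-th power map in a class-two situation. -/
theorem mul_pow_prime_of_comm {G : Type*} [Group G] (hp : p ≠ 2) {x y : G}
    (hx : Commute ⁅y, x⁆ x) (hy : Commute ⁅y, x⁆ y) (hc : ⁅y, x⁆ ^ p = 1) :
    (x * y) ^ p = x ^ p * y ^ p := by
  rw [Cfsg.Agent.Lib.PGroups.ClassTwo.mul_pow_of_comm hx hy p]
  have h2 : 2 < p := lt_of_le_of_ne hpf.out.two_le (Ne.symm hp)
  obtain ⟨c, hc'⟩ := hpf.out.dvd_choose_self (k := 2) (by norm_num) h2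
  rw [hc', pow_mul, hc, one_pow, mul_one]

/-- A group is `p`-central. -/
def IsPCentral (p : ℕ) (Q : Type*) [Group Q] : Prop := ∀ x : Q, x ^ p = 1 → x ∈ center Q

/-- Subgroups of `p`-central groups are `p`-central. -/
theorem IsPCentral.subgroup {Q : Type*} [Group Q] (hQ : IsPCentral p Q) (M : Subgroup Q) :
    IsPCentral p M := by
  intro x hx
  rw [mem_center_iff]
  intro g
  apply Subtype.ext
  have := hQ x.1 (by simpa using congrArg Subtype.val hx)
  rw [mem_center_iff] at this
  simpa using this g.1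

/-- One step: if `y` and `y'` have the same `p`-th power and
`(y⁻¹ m y m⁻¹) ^ p = 1` is known for all `m`, then `(y⁻¹ y') ^ p = 1`. -/
theorem step {Q : Type*} [Group Q] (hp : p ≠ 2) (hQ : IsPCentral p Q)
    (hM : ∀ y m : Q, y ^ (p * p) = 1 → (y⁻¹ * (m * y * m⁻¹)) ^ p = 1)
    {y y' : Q} (hy : y ^ (p * p) = 1) (hyy : y' ^ p = y ^ p) : (y⁻¹ * y') ^ p = 1 := by
  have h1 := hM y y'⁻¹ hy
  have hc := hQ _ h1
  rw [mem_center_iff] at hc
  set c := y⁻¹ * (y'⁻¹ * y * y'⁻¹⁻¹) with hcdef
  have hcy : ∀ g : Q, g * c = c * g := hc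
  have hcomm : ⁅y', y⁻¹⁆ = c := by
    have h := hcy y'
    rw [commutatorElement_def]
    have : y' * y⁻¹ * y'⁻¹ * y⁻¹⁻¹ = y' * c * y'⁻¹ := by
      rw [hcdef]; group
    rw [this, h]; group
  have := mul_pow_prime_of_comm hp (x := y⁻¹) (y := y')
    (by rw [hcomm]; exact (hcy _).symm) (by rw [hcomm]; exact (hcy _).symm)
    (by rw [hcomm]; exact h1)
  rw [this, hyy, inv_pow, inv_mul_cancel]

/-- For a `p`-central `p`-group (`p` odd), `(y⁻¹ g y g⁻¹) ^ p = 1` if `y ^ (p*p) = 1`. -/
theorem inv_mul_conj_pow {Q : Type*} [Group Q] [Finite Q] (hp : p ≠ 2) (hP : IsPGroup p Q)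
    (hQ : IsPCentral p Q) (y g : Q) (hy : y ^ (p * p) = 1) :
    (y⁻¹ * (g * y * g⁻¹)) ^ p = 1 := by
  induction hn : Nat.card Q using Nat.strong_induction_on generalizing Q with
  | _ n ih =>
    by_cases hz : zpowers y = ⊤
    · -- `Q` is cyclic
      have hcomm : ∀ a b : Q, a * b = b * a := by
        intro a b
        have ha : a ∈ zpowers y := hz ▸ mem_top a
        have hb : b ∈ zpowers y := hz ▸ mem_top b
        obtain ⟨i, rfl⟩ := ha
        obtain ⟨j, rfl⟩ := hb
        simp only [← zpow_add, add_comm]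
      have : g * y * g⁻¹ = y := by rw [hcomm g y]; group
      rw [this]; simp
    · obtain ⟨M, hMc, hyM⟩ : ∃ M : Subgroup Q, IsCoatom M ∧ zpowers y ≤ M := by
        obtain h | ⟨M, hM, hle⟩ := eq_top_or_exists_le_coatom (zpowers y)
        · exact absurd h hz
        · exact ⟨M, hM, hle⟩
      have hMn := Cfsg.Agent.Lib.PGroups.Basic.normal_of_isCoatom hP hMc
      have hyM' : y ∈ M := hyM (mem_zpowers y)
      have hy'M : g * y * g⁻¹ ∈ M := hMn.conj_mem y hyM' g
      have hlt : Nat.card M < n := by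
        rw [← hn]
        have := Cfsg.Agent.Lib.PGroups.Basic.card_lt_of_lt (lt_top_iff_ne_top.mpr hMc.1)
        simpa using this
      have hMp : IsPCentral p M := hQ.subgroup M
      have hMP : IsPGroup p M := hP.to_subgroup M
      have key := step hp hMp
        (fun a b hab => ih _ hlt hMP hMp a b hab rfl)
        (y := ⟨y, hyM'⟩) (y' := ⟨g * y * g⁻¹, hy'M⟩)
        (by apply Subtype.ext; simpa using hy)
        (by
          apply Subtype.ext
          have h1 : (g * y * g⁻¹) ^ p = g * y ^ p * g⁻¹ := by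
            rw [conj_pow]
          have h2 := hQ (y ^ p) (by rw [← pow_mul]; exact hy)
          rw [mem_center_iff] at h2
          simp only [SubmonoidClass.coe_pow]
          rw [h1, h2 g]; group)
      simpa using congrArg Subtype.val key

/-- Same `p`-th power implies congruent modulo `Ω₁`. -/
theorem inv_mul_pow_eq_one {Q : Type*} [Group Q] [Finite Q] (hp : p ≠ 2) (hP : IsPGroup p Q)
    (hQ : IsPCentral p Q) {y y' : Q} (hy : y ^ (p * p) = 1) (hyy : y' ^ p = y ^ p) :
    (y⁻¹ * y') ^ p = 1 :=
  step hp hQ (fun a b hab => inv_mul_conj_pow hp hP hQ a b hab) hy hyy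

/-- The subgroup `Ω₁` of a `p`-central group. -/
def omegaOne {Q : Type*} [Group Q] (hQ : IsPCentral p Q) : Subgroup Q where
  carrier := {x | x ^ p = 1}
  mul_mem' := by
    intro a b ha hb
    have hc : Commute a b := (mem_center_iff.mp (hQ a ha) b).symm
    show (a * b) ^ p = 1
    rw [hc.mul_pow, show a ^ p = 1 from ha, show b ^ p = 1 from hb, one_mul]
  one_mem' := one_pow p
  inv_mem' := by
    intro a ha
    show a⁻¹ ^ p = 1
    rw [inv_pow, show a ^ p = 1 from ha, inv_one]

theorem mem_omegaOne {Q : Type*} [Group Q] (hQ : IsPCentral p Q) {x : Q} :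
    x ∈ omegaOne hQ ↔ x ^ p = 1 := Iff.rfl

theorem omegaOne_normal {Q : Type*} [Group Q] (hQ : IsPCentral p Q) : (omegaOne hQ).Normal := by
  constructor
  intro n hn g
  rw [mem_omegaOne] at hn ⊢
  rw [conj_pow, hn]; group

/-- Counting for a maximal subgroup missing `z`. -/
theorem card_omega_le {Q : Type*} [Group Q] [Finite Q] (hP : IsPGroup p Q) (hQ : IsPCentral p Q)
    (M : Subgroup Q) {z : Q} (hz : z ^ p = 1) (hzM : z ∉ M) :
    p * Nat.card {x : M // x ^ p = 1} ≤ Nat.card {x : Q // x ^ p = 1} := by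
  set F := omegaOne hQ with hF
  have hcardF : Nat.card F = Nat.card {x : Q // x ^ p = 1} := rfl
  set H := M.subgroupOf F with hH
  have h1 : Nat.card H * H.index = Nat.card F := H.card_mul_index
  obtain ⟨e, he⟩ := (hP.to_subgroup F).exists_card_eq
  have hdvd : H.index ∣ p ^ e := he ▸ H.index_dvd_card
  obtain ⟨t, _, ht⟩ := (Nat.dvd_prime_pow hpf.out).1 hdvd
  have hne : H.index ≠ 1 := by
    intro h
    rw [Subgroup.index_eq_one] at h
    have : (⟨z, hz⟩ : F) ∈ H := h ▸ mem_top _
    exact hzM (by simpa [hH, mem_subgroupOf] using this)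
  have hle : p ≤ H.index := by
    rw [ht]
    have ht0 : t ≠ 0 := by
      rintro rfl
      rw [pow_zero] at ht
      exact hne ht
    calc p = p ^ 1 := (pow_one p).symm
      _ ≤ p ^ t := Nat.pow_le_pow_right hpf.out.pos (Nat.one_le_iff_ne_zero.mpr ht0)
  have hinj : Nat.card {x : M // x ^ p = 1} ≤ Nat.card H := by
    refine Nat.card_le_card_of_injective
      (fun x => (⟨⟨x.1.1, by
        show (x.1.1 : Q) ^ p = 1
        have := congrArg Subtype.val x.2
        simpa using this⟩, by
        simp [hH, mem_subgroupOf]⟩ : H)) ?_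
    intro a b hab
    have := congrArg (fun y : H => (y.1.1 : Q)) hab
    exact Subtype.ext (Subtype.ext this)
  rw [← hcardF, ← h1, mul_comm]
  exact Nat.mul_le_mul hinj hle

/-- A `p`-central `p`-group (`p` odd) with `|Ω₁| ≤ p ^ n` is generated by `n` elements. -/
theorem exists_generators {Q : Type*} [Group Q] [Finite Q] (hp : p ≠ 2) (hP : IsPGroup p Q)
    (hQ : IsPCentral p Q) (n : ℕ) (hn : Nat.card {x : Q // x ^ p = 1} ≤ p ^ n) :
    ∃ S : Finset Q, S.card ≤ n ∧ closure (S : Set Q) = ⊤ := by
  classical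
  induction hm : Nat.card Q using Nat.strong_induction_on generalizing Q n with
  | _ m ih =>
    by_cases hz : ∃ z : Q, z ^ p = 1 ∧ z ∉ frattini Q
    · -- Case A: an element of order `p` outside the Frattini subgroup
      obtain ⟨z, hzp, hzF⟩ := hz
      obtain ⟨M, hMc, hzM⟩ : ∃ M : Subgroup Q, IsCoatom M ∧ z ∉ M := by
        by_contra hcon
        push Not at hcon
        apply hzF
        unfold frattini Order.radical
        rw [mem_iInf]
        intro M
        rw [mem_iInf]
        intro hM
        exact hcon M hM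
      have hcount := card_omega_le hP hQ M hzp hzM
      have hpos : 0 < Nat.card {x : M // x ^ p = 1} := by
        have : Nonempty {x : M // x ^ p = 1} := ⟨⟨1, one_pow p⟩⟩
        exact Nat.card_pos
      have hn0 : n ≠ 0 := by
        rintro rfl
        have h1 : p * Nat.card {x : M // x ^ p = 1} ≤ 1 := by
          simpa using hcount.trans hn
        have h2 : p * 1 ≤ p * Nat.card {x : M // x ^ p = 1} := Nat.mul_le_mul_left _ hpos
        have := hpf.out.two_le
        omega
      obtain ⟨n', rfl⟩ := Nat.exists_eq_succ_of_ne_zero hn0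
      have hMle : Nat.card {x : M // x ^ p = 1} ≤ p ^ n' := by
        have h1 : p * Nat.card {x : M // x ^ p = 1} ≤ p * p ^ n' := by
          calc _ ≤ _ := hcount
            _ ≤ p ^ (n' + 1) := hn
            _ = p * p ^ n' := pow_succ' p n'
        exact Nat.le_of_mul_le_mul_left h1 hpf.out.pos
      have hlt : Nat.card M < m := by
        rw [← hm]
        have := Cfsg.Agent.Lib.PGroups.Basic.card_lt_of_lt (lt_top_iff_ne_top.mpr hMc.1)
        simpa using this
      obtain ⟨S₀, hS₀, hS₀c⟩ := ih _ hlt (hP.to_subgroup M) (hQ.subgroup M) n' hMle rfl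
      refine ⟨insert z (S₀.image (Subtype.val : M → Q)), ?_, ?_⟩
      · calc _ ≤ (S₀.image (Subtype.val : M → Q)).card + 1 := Finset.card_insert_le _ _
          _ ≤ S₀.card + 1 := by
            have := Finset.card_image_le (s := S₀) (f := (Subtype.val : M → Q))
            omega
          _ ≤ n' + 1 := by omega
      · set L := closure ((insert z (S₀.image (Subtype.val : M → Q)) : Finset Q) : Set Q) with hL
        have hML : M ≤ L := by
          intro y hy
          have hy' : (⟨y, hy⟩ : M) ∈ closure (S₀ : Set M) := hS₀c ▸ mem_top _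
          have hmap : (closure (S₀ : Set M)).map M.subtype ≤ L := by
            rw [MonoidHom.map_closure, closure_le]
            rintro _ ⟨s, hs, rfl⟩
            apply Subgroup.subset_closure
            simp only [Finset.coe_insert, Finset.coe_image]
            exact Or.inr ⟨s, hs, rfl⟩
          exact hmap ⟨_, hy', rfl⟩
        have hzL : z ∈ L := Subgroup.subset_closure (by simp)
        refine hMc.2 L (lt_of_le_of_ne hML ?_)
        intro hEq
        rw [← hEq] at hzL
        exact hzM hzL
    · -- Case B: `Ω₁ ≤ Φ`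
      push Not at hz
      by_cases htriv : Subsingleton Q
      · refine ⟨∅, by simp, ?_⟩
        simp only [Finset.coe_empty, Subgroup.closure_empty]
        exact Subsingleton.elim _ _
      · rw [not_subsingleton_iff_nontrivial] at htriv
        set F := omegaOne hQ with hF
        haveI hFn : F.Normal := omegaOne_normal hQ
        have hFbot : F ≠ ⊥ := by
          obtain ⟨a, ha⟩ := exists_prime_orderOf_dvd_card' p
            (hP.card_eq_or_dvd.resolve_left Finite.one_lt_card.ne')
          intro hbot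
          have : a ∈ F := by
            rw [hF, mem_omegaOne, ← ha]; exact pow_orderOf_eq_one a
          rw [hbot, mem_bot] at this
          rw [this, orderOf_one] at ha
          exact hpf.out.one_lt.ne ha
        have hpow : ∀ x : Q, x ^ p ∈ F → x ^ (p * p) = 1 := by
          intro x hx
          rw [pow_mul]; exact hx
        have hqp : IsPCentral p (Q ⧸ F) := by
          intro xq hxq
          obtain ⟨x, rfl⟩ := QuotientGroup.mk_surjective xq
          have hx : x ^ p ∈ F := by
            rw [← QuotientGroup.eq_one_iff]; simpa using hxq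
          rw [mem_center_iff]
          intro gq
          obtain ⟨g, rfl⟩ := QuotientGroup.mk_surjective gq
          have h1 := inv_mul_conj_pow hp hP hQ x g (hpow x hx)
          have h2 : x⁻¹ * (g * x * g⁻¹) ∈ F := h1
          rw [← QuotientGroup.eq_one_iff] at h2
          have h3 : (x : Q ⧸ F)⁻¹ * (g * x * (g : Q ⧸ F)⁻¹) = 1 := by
            simpa using h2
          have h4 : (g : Q ⧸ F) * x * (g : Q ⧸ F)⁻¹ = x := by
            rw [inv_mul_eq_one] at h3
            exact h3.symm
          rw [mul_inv_eq_iff_eq_mul] at h4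
          exact h4
        have hqcard : Nat.card {x : Q ⧸ F // x ^ p = 1} ≤ p ^ n := by
          refine le_trans ?_ hn
          have hout : ∀ x : {x : Q ⧸ F // x ^ p = 1}, (Quotient.out x.1 : Q) ^ p ∈ F := by
            intro x
            rw [← QuotientGroup.eq_one_iff]
            have h := x.2
            have h' : ((Quotient.out x.1 : Q) : Q ⧸ F) = x.1 := QuotientGroup.out_eq' x.1
            simp only [QuotientGroup.mk_pow, h', h]
          refine Nat.card_le_card_of_injective
            (fun x => (⟨(Quotient.out x.1 : Q) ^ p, hout x⟩ : {x : Q // x ^ p = 1})) ?_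
          intro a b hab
          have hab' : (Quotient.out b.1 : Q) ^ p = (Quotient.out a.1 : Q) ^ p :=
            (congrArg Subtype.val hab).symm
          have := inv_mul_pow_eq_one hp hP hQ (hpow _ (hout a)) hab'
          have hmem : (Quotient.out a.1 : Q)⁻¹ * Quotient.out b.1 ∈ F := this
          rw [← QuotientGroup.eq] at hmem
          apply Subtype.ext
          have ha : ((Quotient.out a.1 : Q) : Q ⧸ F) = a.1 := QuotientGroup.out_eq' a.1
          have hb : ((Quotient.out b.1 : Q) : Q ⧸ F) = b.1 := QuotientGroup.out_eq' b.1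
          rw [← ha, ← hb, hmem]
        have hlt : Nat.card (Q ⧸ F) < m := by
          rw [← hm]
          have h1 := Subgroup.card_eq_card_quotient_mul_card_subgroup F
          have h2 : 1 < Nat.card F := by
            rw [Finite.one_lt_card_iff_nontrivial]
            exact (Subgroup.nontrivial_iff_ne_bot F).mpr hFbot
          have h3 : 0 < Nat.card (Q ⧸ F) := Nat.card_pos
          rw [h1]
          nlinarith
        obtain ⟨Sq, hSq, hSqc⟩ := ih _ hlt (hP.to_quotient F) hqp n hqcard rfl
        refine ⟨Sq.image (fun x => (Quotient.out x : Q)), Finset.card_image_le.trans hSq, ?_⟩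
        set L := closure ((Sq.image (fun x => (Quotient.out x : Q)) : Finset Q) : Set Q) with hL
        have hsup : L ⊔ F = ⊤ := by
          rw [eq_top_iff]
          intro g _
          have hmem : (g : Q ⧸ F) ∈ closure (Sq : Set (Q ⧸ F)) := hSqc ▸ mem_top _
          have hle : closure (Sq : Set (Q ⧸ F)) ≤ L.map (QuotientGroup.mk' F) := by
            rw [closure_le]
            intro s hs
            refine ⟨Quotient.out s, ?_, QuotientGroup.out_eq' s⟩
            apply Subgroup.subset_closure
            simp only [Finset.coe_image]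
            exact ⟨s, hs, rfl⟩
          obtain ⟨s, hs, hsg⟩ := hle hmem
          have hsg' : (s : Q ⧸ F) = g := hsg
          rw [QuotientGroup.eq] at hsg'
          have : g = s * (s⁻¹ * g) := by group
          rw [this]
          exact mul_mem (mem_sup_left hs) (mem_sup_right hsg')
        have hFfr : F ≤ frattini Q := fun z hz' => hz z hz'
        have hsup' : L ⊔ frattini Q = ⊤ := by
          rw [eq_top_iff, ← hsup]
          exact sup_le_sup_left hFfr L
        exact frattini_nongenerating hsup'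

/-- Key lemma: if `x ^ p = 1` normalizes the `p`-central `p`-group `U`, and `x` centralizes
`Ω₁(U)`, then `(x u) ^ p = 1` forces `u ^ p = 1`, for `u ∈ U`. -/
theorem pow_eq_one_of_mul_pow_eq_one {Γ : Type*} [Group Γ] [Finite Γ] (hp : p ≠ 2)
    (U : Subgroup Γ) (hUn : U.Normal) (hU : IsPGroup p U) (x : Γ) (hx : x ^ p = 1)
    (h1 : ∀ v ∈ U, v ^ p = 1 → ∀ w ∈ U, v * w = w * v)
    (h2 : ∀ v ∈ U, v ^ p = 1 → x * v = v * x) :
    ∀ u ∈ U, (x * u) ^ p = 1 → u ^ p = 1 := by
  classical
  induction hm : Nat.card U using Nat.strong_induction_on generalizing Γ with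
  | _ m ih =>
    intro u hu hxu
    -- `U` is `p`-central
    have hUc : IsPCentral p U := by
      intro y hy
      rw [mem_center_iff]
      intro w
      have hy' : (y : Γ) ^ p = 1 := by simpa using congrArg Subtype.val hy
      apply Subtype.ext
      exact (h1 y.1 y.2 hy' w.1 w.2).symm
    -- the subgroup `E = Ω₁(U)`
    let E : Subgroup Γ :=
      { carrier := {v | v ∈ U ∧ v ^ p = 1}
        mul_mem' := by
          rintro a b ⟨ha, ha'⟩ ⟨hb, hb'⟩
          refine ⟨U.mul_mem ha hb, ?_⟩
          have hc : Commute a b := h1 a ha ha' b hb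
          rw [hc.mul_pow, ha', hb', one_mul]
        one_mem' := ⟨U.one_mem, one_pow p⟩
        inv_mem' := by
          rintro a ⟨ha, ha'⟩
          exact ⟨U.inv_mem ha, by rw [inv_pow, ha', inv_one]⟩ }
    have hEmem : ∀ v, v ∈ E ↔ v ∈ U ∧ v ^ p = 1 := fun v => Iff.rfl
    haveI hEn : E.Normal := by
      constructor
      rintro n ⟨hn, hn'⟩ g
      exact ⟨hUn.conj_mem n hn g, by rw [conj_pow, hn']; group⟩
    by_cases hEbot : E = ⊥
    · -- then `U` is trivial
      have hUt : Subsingleton U := by
        by_contra hnt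
        rw [not_subsingleton_iff_nontrivial] at hnt
        obtain ⟨a, ha⟩ := exists_prime_orderOf_dvd_card' (G := U) p
          (hU.card_eq_or_dvd.resolve_left Finite.one_lt_card.ne')
        have h3 : (a : Γ) ∈ E := ⟨a.2, by
          have := pow_orderOf_eq_one a
          rw [ha] at this
          simpa using congrArg Subtype.val this⟩
        rw [hEbot, mem_bot] at h3
        have h4 : a = 1 := Subtype.ext h3
        rw [h4, orderOf_one] at ha
        exact hpf.out.one_lt.ne ha
      have : (⟨u, hu⟩ : U) = 1 := Subsingleton.elim _ _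
      have hu1 : u = 1 := congrArg Subtype.val this
      rw [hu1, one_pow]
    · -- pass to the quotient
      have hEU : E ≤ U := fun v hv => hv.1
      let Ū : Subgroup (Γ ⧸ E) := U.map (QuotientGroup.mk' E)
      haveI hŪn : Ū.Normal := hUn.map _ (QuotientGroup.mk'_surjective E)
      have hŪp : IsPGroup p Ū := by
        rintro ⟨_, a, ha, rfl⟩
        obtain ⟨k, hk⟩ := hU ⟨a, ha⟩
        refine ⟨k, ?_⟩
        apply Subtype.ext
        have hk' : a ^ p ^ k = 1 := by simpa using congrArg Subtype.val hk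
        simp only [SubmonoidClass.coe_pow, OneMemClass.coe_one]
        show (QuotientGroup.mk' E) a ^ p ^ k = 1
        rw [← map_pow, hk', map_one]
      have hlt : Nat.card Ū < m := by
        rw [← hm]
        let f : U → Ū := fun a => ⟨QuotientGroup.mk' E a.1, a.1, a.2, rfl⟩
        have hf : Function.Surjective f := by
          rintro ⟨_, a, ha, rfl⟩
          exact ⟨⟨a, ha⟩, rfl⟩
        by_contra hcon
        have hbij := hf.bijective_of_nat_card_le (not_lt.mp hcon)
        apply hEbot
        rw [eq_bot_iff]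
        intro e he
        have h3 : f ⟨e, he.1⟩ = f 1 := by
          apply Subtype.ext
          show (QuotientGroup.mk' E) e = (QuotientGroup.mk' E) 1
          rw [map_one]
          exact (QuotientGroup.eq_one_iff e).mpr he
        have h4 := hbij.1 h3
        exact congrArg Subtype.val h4
      have hpp : ∀ a : Γ, ((a : Γ ⧸ E)) ^ p = 1 → a ∈ U → a ^ (p * p) = 1 ∧ a ^ p ∈ E := by
        intro a ha haU
        have h3 : a ^ p ∈ E := by
          rw [← QuotientGroup.eq_one_iff]; simpa using ha
        refine ⟨?_, h3⟩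
        rw [pow_mul]; exact h3.2
      have hconjE : ∀ (a b : Γ), a ∈ U → a⁻¹ * b ∈ E → ((a : Γ ⧸ E)) = b := by
        intro a b _ hab
        exact (QuotientGroup.eq).mpr hab
      -- (H1) for the quotient
      have h1' : ∀ v ∈ Ū, v ^ p = 1 → ∀ w ∈ Ū, v * w = w * v := by
        rintro _ ⟨v, hv, rfl⟩ hvp _ ⟨w, hw, rfl⟩
        have hvp' : ((v : Γ ⧸ E)) ^ p = 1 := hvp
        obtain ⟨h3, _⟩ := hpp v hvp' hv
        have h4 := inv_mul_conj_pow hp hU hUc ⟨v, hv⟩ ⟨w, hw⟩
          (by apply Subtype.ext; simpa using h3)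
        have h5 : (v⁻¹ * (w * v * w⁻¹)) ^ p = 1 := by
          simpa using congrArg Subtype.val h4
        have h6 : v⁻¹ * (w * v * w⁻¹) ∈ E :=
          ⟨U.mul_mem (U.inv_mem hv) (hUn.conj_mem v hv w), h5⟩
        have h7 := hconjE v _ hv h6
        show (v : Γ ⧸ E) * (w : Γ ⧸ E) = (w : Γ ⧸ E) * (v : Γ ⧸ E)
        have h8 : (v : Γ ⧸ E) = (w : Γ ⧸ E) * v * (w : Γ ⧸ E)⁻¹ := by simpa using h7
        rw [eq_mul_inv_iff_mul_eq] at h8
        exact h8
      -- same `p`-th power, in `Γ`
      have hsame : ∀ a b : Γ, a ∈ U → b ∈ U → a ^ (p * p) = 1 → b ^ p = a ^ p →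
          (a⁻¹ * b) ^ p = 1 := by
        intro a b ha hb hap hab
        have h4 := inv_mul_pow_eq_one hp hU hUc (y := ⟨a, ha⟩) (y' := ⟨b, hb⟩)
          (by apply Subtype.ext; simpa using hap)
          (by apply Subtype.ext; simpa using hab)
        simpa using congrArg Subtype.val h4
      -- (H2) for the quotient
      have h2' : ∀ v ∈ Ū, v ^ p = 1 → ((x : Γ ⧸ E)) * v = v * ((x : Γ ⧸ E)) := by
        rintro _ ⟨v, hv, rfl⟩ hvp
        have hvp' : ((v : Γ ⧸ E)) ^ p = 1 := hvp
        obtain ⟨h3, h3'⟩ := hpp v hvp' hv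
        have hconj : (x * v * x⁻¹) ^ p = v ^ p := by
          rw [conj_pow, h2 _ h3'.1 h3'.2]; group
        have h5 := hsame v (x * v * x⁻¹) hv (hUn.conj_mem v hv x) h3 hconj
        have h6 : v⁻¹ * (x * v * x⁻¹) ∈ E :=
          ⟨U.mul_mem (U.inv_mem hv) (hUn.conj_mem v hv x), h5⟩
        have h7 := hconjE v _ hv h6
        show (x : Γ ⧸ E) * (v : Γ ⧸ E) = (v : Γ ⧸ E) * (x : Γ ⧸ E)
        have h8 : (v : Γ ⧸ E) = (x : Γ ⧸ E) * v * (x : Γ ⧸ E)⁻¹ := by simpa using h7
        rw [eq_mul_inv_iff_mul_eq] at h8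
        exact h8.symm
      have hxbar : ((x : Γ ⧸ E)) ^ p = 1 := by
        rw [← QuotientGroup.mk_pow, hx]; rfl
      have hIH := ih _ hlt Ū hŪn hŪp _ hxbar h1' h2' rfl (u : Γ ⧸ E) ⟨u, hu, rfl⟩
        (by rw [← QuotientGroup.mk_mul, ← QuotientGroup.mk_pow, hxu]; rfl)
      obtain ⟨hu2, hu3⟩ := hpp u hIH hu
      -- `u ^ p ∈ E`
      have hconj : (x⁻¹ * u * x⁻¹⁻¹) ^ p = u ^ p := by
        have := h2 _ hu3.1 hu3.2
        rw [conj_pow, inv_inv]
        have h' : x⁻¹ * u ^ p * x = u ^ p := by
          rw [mul_assoc, ← this]; group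
        exact h'
      have hmemc : x⁻¹ * u * x⁻¹⁻¹ ∈ U := hUn.conj_mem u hu x⁻¹
      have h5 := hsame u _ hu hmemc hu2 hconj
      have h6 : u⁻¹ * (x⁻¹ * u * x⁻¹⁻¹) ∈ E := ⟨U.mul_mem (U.inv_mem hu) hmemc, h5⟩
      set d := u⁻¹ * (x⁻¹ * u * x⁻¹⁻¹) with hd
      have hdx : x * d = d * x := h2 d h6.1 h6.2
      have hdu : d * u = u * d := h1 d h6.1 h6.2 u hu
      have hcomm : ⁅u, x⁆ = d := by
        -- `x d x⁻¹ = u x u⁻¹ x⁻¹` after moving `d` past `u`
        have e1 : u * d * u⁻¹ = x⁻¹ * u * x * u⁻¹ := by rw [hd]; group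
        have e2 : u * d * u⁻¹ = d := by rw [← hdu]; group
        have e3 : x * (x⁻¹ * u * x * u⁻¹) * x⁻¹ = ⁅u, x⁆ := by
          rw [commutatorElement_def]; group
        have e4 : x * d * x⁻¹ = d := by rw [hdx]; group
        rw [← e3, ← e1, e2, e4]
      have hP2 := mul_pow_prime_of_comm hp (x := x) (y := u)
        (by rw [hcomm]; exact hdx.symm) (by rw [hcomm]; exact hdu)
        (by rw [hcomm]; exact h6.2)
      rw [hxu, hx, one_mul] at hP2
      exact hP2.symm

/-- For `E` a maximal normal elementary abelian subgroup of a `p`-group, `p` odd,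
`Ω₁(C(E)) ≤ E`. -/
theorem mem_of_mem_centralizer {P : Type*} [Group P] [Finite P] (hp : p ≠ 2) (hP : IsPGroup p P)
    (E : Subgroup P) (hEn : E.Normal) (hEc : IsMulCommutative E) (hEp : ∀ a ∈ E, a ^ p = 1)
    (hmax : ∀ T : Subgroup P, T.Normal → IsMulCommutative T → (∀ a ∈ T, a ^ p = 1) → E ≤ T → T ≤ E) :
    ∀ x ∈ centralizer (E : Set P), x ^ p = 1 → x ∈ E := by
  classical
  set C := centralizer (E : Set P) with hC
  haveI hCn : C.Normal := by
    haveI := hEn
    exact Subgroup.normal_centralizer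
  have hEC : E ≤ C := by
    intro a ha
    rw [hC, mem_centralizer_iff]
    intro b hb
    exact congrArg Subtype.val (hEc.is_comm.comm (⟨b, hb⟩ : E) ⟨a, ha⟩)
  obtain ⟨U, -, hU⟩ := (Set.toFinite {U : Subgroup P | U.Normal ∧ E ≤ U ∧ U ≤ C ∧
      ∀ v ∈ U, v ^ p = 1 → v ∈ E}).exists_le_maximal
    (show E ∈ _ from ⟨hEn, le_rfl, hEC, fun v hv _ => hv⟩)
  obtain ⟨⟨hUn, hEU, hUC, hUE⟩, hUmax⟩ := hU
  suffices hUeq : C ≤ U by
    intro x hx hxp
    exact hUE x (hUeq hx) hxp
  by_contra hCU
  haveI := hUn
  -- a central element of `P / U` in `C / U`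
  have hmapn : (C.map (QuotientGroup.mk' U)).Normal :=
    hCn.map _ (QuotientGroup.mk'_surjective U)
  have hmapne : C.map (QuotientGroup.mk' U) ≠ ⊥ := by
    intro h
    apply hCU
    intro c hc
    have : (QuotientGroup.mk' U) c ∈ C.map (QuotientGroup.mk' U) := ⟨c, hc, rfl⟩
    rw [h, mem_bot] at this
    exact (QuotientGroup.eq_one_iff c).mp this
  have hne := Cfsg.Agent.Lib.Involutions2.NormalFour.inf_center_ne_bot (hP.to_quotient U)
    (C.map (QuotientGroup.mk' U)) hmapne
  set V := C ⊓ (center (P ⧸ U)).comap (QuotientGroup.mk' U) with hV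
  have hVn : V.Normal := by
    haveI : (center (P ⧸ U)).Normal := inferInstance
    haveI : ((center (P ⧸ U)).comap (QuotientGroup.mk' U)).Normal := Subgroup.Normal.comap ‹_› _
    exact Subgroup.normal_inf_normal _ _
  have hUV : U ≤ V := by
    intro u hu
    refine ⟨hUC hu, ?_⟩
    show (QuotientGroup.mk' U) u ∈ center (P ⧸ U)
    have : (QuotientGroup.mk' U) u = 1 := (QuotientGroup.eq_one_iff u).mpr hu
    rw [this]
    exact one_mem _
  have hVne : ¬ V ≤ U := by
    intro hle
    apply hne
    rw [eq_bot_iff]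
    rintro y ⟨⟨v, hv, rfl⟩, hy⟩
    have hvV : v ∈ V := ⟨hv, hy⟩
    rw [mem_bot]
    exact (QuotientGroup.eq_one_iff v).mpr (hle hvV)
  have hVnot : ¬ ∀ v ∈ V, v ^ p = 1 → v ∈ E := by
    intro hh
    exact hVne (hUmax (show V ∈ _ from ⟨hVn, hEU.trans hUV, inf_le_left, hh⟩) hUV)
  push Not at hVnot
  obtain ⟨x, hxV, hxp, hxE⟩ := hVnot
  have hxC : x ∈ C := hxV.1
  have hconj : ∀ g : P, x⁻¹ * (g * x * g⁻¹) ∈ E := by
    intro g
    have hcen : (QuotientGroup.mk' U) x ∈ center (P ⧸ U) := hxV.2
    rw [mem_center_iff] at hcen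
    have hu : x⁻¹ * (g * x * g⁻¹) ∈ U := by
      rw [← QuotientGroup.eq_one_iff]
      have h3 := hcen (QuotientGroup.mk' U g)
      have h3' : (g : P ⧸ U) * x = x * g := h3
      rw [QuotientGroup.mk_mul, QuotientGroup.mk_mul, QuotientGroup.mk_mul, h3',
        QuotientGroup.mk_inv, QuotientGroup.mk_inv]
      group
    apply hUE _ hu
    refine pow_eq_one_of_mul_pow_eq_one hp U hUn (hP.to_subgroup U) x hxp ?_ ?_ _ hu ?_
    · intro v hv hvp w hw
      have hvE := hUE v hv hvp
      have hwC := hUC hw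
      rw [hC, mem_centralizer_iff] at hwC
      exact hwC v hvE
    · intro v hv hvp
      have hvE := hUE v hv hvp
      rw [hC, mem_centralizer_iff] at hxC
      exact (hxC v hvE).symm
    · have : x * (x⁻¹ * (g * x * g⁻¹)) = g * x * g⁻¹ := by group
      rw [this, conj_pow, hxp]; group
  -- the bigger subgroup
  have hcent : x ∈ centralizer (E : Set P) := hxC
  obtain ⟨hT1, hT2⟩ := Cfsg.Agent.Lib.PGroups.RankBound.ea_closure_insert hEc hEp hxp hcent
  have hTn : (closure ((E : Set P) ∪ {x})).Normal := by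
    constructor
    intro n hn g
    induction hn using closure_induction with
    | mem u hu =>
      rcases hu with hu | rfl
      · exact Subgroup.subset_closure (Or.inl (hEn.conj_mem u hu g))
      · have h3 : g * u * g⁻¹ = u * (u⁻¹ * (g * u * g⁻¹)) := by group
        rw [h3]
        exact mul_mem (Subgroup.subset_closure (Or.inr rfl)) (Subgroup.subset_closure (Or.inl (hconj g)))
    | one => simp
    | mul a b _ _ iha ihb =>
      have h3 : g * (a * b) * g⁻¹ = (g * a * g⁻¹) * (g * b * g⁻¹) := by group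
      rw [h3]
      exact mul_mem iha ihb
    | inv a _ iha =>
      have h3 : g * a⁻¹ * g⁻¹ = (g * a * g⁻¹)⁻¹ := by group
      rw [h3]
      exact inv_mem iha
  have hET : E ≤ closure ((E : Set P) ∪ {x}) := fun y hy => Subgroup.subset_closure (Or.inl hy)
  exact hxE (hmax _ hTn hT1 hT2 hET (Subgroup.subset_closure (Or.inr rfl)))

end Cfsg.Agent.Lib.PCentral.Basic
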