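import Cfsg.Agent.Lib.PGroups.Basic
import Mathlib

/-!
# Subgroups of the unitriangular group over `𝔽_p` (Patterson's bound)

A `p`-group `X` with a homomorphism `A` into the unitriangular `m × m` matrices over `𝔽_p` is generated
modulo the kernel of `A` by `⌊m² / 4⌋` elements.
-/

set_option autoImplicit false

namespace Cfsg.Agent.Lib.PCentral.Patterson

open Subgroup
open scoped commutatorElement

/-- The order on the positions above the diagonal: first by the distance to the diagonal, then
by the row. -/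
def key (m : ℕ) (a b : Fin m) : ℕ := (b.val - a.val) * (m + 1) + a.val

theorem nat_key_le {m d e a u : ℕ} (ha : a ≤ m) (hu : u ≤ m) :
    d * (m + 1) + a ≤ e * (m + 1) + u ↔ d < e ∨ (d = e ∧ a ≤ u) := by
  constructor
  · intro h
    rcases lt_trichotomy d e with hl | rfl | hl
    · exact Or.inl hl
    · right; exact ⟨rfl, by omega⟩
    · exfalso
      have : (e + 1) * (m + 1) ≤ d * (m + 1) := Nat.mul_le_mul_right _ hl
      nlinarith
  · rintro (hl | ⟨rfl, hl⟩)
    · have : (d + 1) * (m + 1) ≤ e * (m + 1) := Nat.mul_le_mul_right _ hl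
      nlinarith
    · omega

variable {m : ℕ}

theorem key_le_iff (a b u v : Fin m) : key m a b ≤ key m u v ↔
    (b.val - a.val < v.val - u.val ∨ (b.val - a.val = v.val - u.val ∧ a.val ≤ u.val)) :=
  nat_key_le a.2.le u.2.le

theorem key_succ_le_iff (a b u v : Fin m) : key m a b + 1 ≤ key m u v ↔
    (b.val - a.val < v.val - u.val ∨ (b.val - a.val = v.val - u.val ∧ a.val < u.val)) := by
  have := nat_key_le (m := m) (d := b.val - a.val) (e := v.val - u.val) (a := a.val + 1)
    (u := u.val) (by have := a.2; omega) u.2.le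
  unfold key
  rw [add_assoc, this]
  omega

theorem key_lt (a b : Fin m) : key m a b < (m + 1) * (m + 1) := by
  unfold key
  have h1 : b.val - a.val ≤ m := by have := b.2; omega
  have h2 := a.2
  have : (b.val - a.val) * (m + 1) ≤ m * (m + 1) := Nat.mul_le_mul_right _ h1
  nlinarith

section Matrices

variable {R : Type*} [Ring R]

/-- Matrices above the diagonal whose nonzero positions have key at least `w`. -/
def InI (w : ℕ) (N : Matrix (Fin m) (Fin m) R) : Prop :=
  ∀ a b, N a b ≠ 0 → a < b ∧ w ≤ key m a b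

theorem InI.mono {w w' : ℕ} {N : Matrix (Fin m) (Fin m) R} (h : InI w N) (hw : w' ≤ w) :
    InI w' N := fun a b hab => ⟨(h a b hab).1, hw.trans (h a b hab).2⟩

theorem InI.add {w : ℕ} {N L : Matrix (Fin m) (Fin m) R} (hN : InI w N) (hL : InI w L) :
    InI w (N + L) := by
  intro a b hab
  by_cases h : N a b = 0
  · apply hL a b
    intro h'
    apply hab
    simp [h, h']
  · exact hN a b h

theorem InI.sub {w : ℕ} {N L : Matrix (Fin m) (Fin m) R} (hN : InI w N) (hL : InI w L) :
    InI w (N - L) := by
  intro a b hab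
  by_cases h : N a b = 0
  · apply hL a b
    intro h'
    apply hab
    simp [h, h']
  · exact hN a b h

theorem InI.zero (w : ℕ) : InI w (0 : Matrix (Fin m) (Fin m) R) := by
  intro a b hab
  exact absurd rfl hab

theorem InI.eq_zero {w : ℕ} {N : Matrix (Fin m) (Fin m) R} (h : InI (w + 1) N) {a b : Fin m}
    (hk : key m a b = w) : N a b = 0 := by
  by_contra hne
  have := (h a b hne).2
  omega

theorem exists_of_mul_ne_zero {N L : Matrix (Fin m) (Fin m) R} {a b : Fin m}
    (h : (N * L) a b ≠ 0) : ∃ c, N a c ≠ 0 ∧ L c b ≠ 0 := by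
  rw [Matrix.mul_apply] at h
  obtain ⟨c, _, hc⟩ := Finset.exists_ne_zero_of_sum_ne_zero h
  exact ⟨c, left_ne_zero_of_mul hc, right_ne_zero_of_mul hc⟩

theorem InI.mul_left {w : ℕ} {N L : Matrix (Fin m) (Fin m) R} (hN : InI w N) (hL : InI 0 L) :
    InI (w + 1) (N * L) := by
  intro a b hab
  obtain ⟨c, h1, h2⟩ := exists_of_mul_ne_zero hab
  obtain ⟨ha, hw⟩ := hN a c h1
  obtain ⟨hb, -⟩ := hL c b h2
  refine ⟨ha.trans hb, ?_⟩
  have : key m a c + 1 ≤ key m a b := by
    rw [key_succ_le_iff]
    simp only [Fin.lt_def] at ha hb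
    omega
  omega

theorem InI.mul_right {w : ℕ} {N L : Matrix (Fin m) (Fin m) R} (hN : InI w N) (hL : InI 0 L) :
    InI (w + 1) (L * N) := by
  intro a b hab
  obtain ⟨c, h1, h2⟩ := exists_of_mul_ne_zero hab
  obtain ⟨ha, -⟩ := hL a c h1
  obtain ⟨hb, hw⟩ := hN c b h2
  refine ⟨ha.trans hb, ?_⟩
  have : key m c b + 1 ≤ key m a b := by
    rw [key_succ_le_iff]
    simp only [Fin.lt_def] at ha hb
    omega
  omega

/-- Product of the leading terms. -/
theorem InI.mul_lead₁ {a j b : Fin m} {M L : Matrix (Fin m) (Fin m) R}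
    (hM : InI (key m a j) M) (hL : InI (key m j b) L) (haj : a < j) (hjb : j < b) :
    InI (key m a b) (M * L) := by
  intro u v huv
  obtain ⟨s, h1, h2⟩ := exists_of_mul_ne_zero huv
  obtain ⟨hu, hk1⟩ := hM u s h1
  obtain ⟨hv, hk2⟩ := hL s v h2
  refine ⟨hu.trans hv, ?_⟩
  rw [key_le_iff] at hk1 hk2 ⊢
  simp only [Fin.lt_def] at hu hv haj hjb
  omega

/-- The other product is of higher order. -/
theorem InI.mul_lead₂ {a j b : Fin m} {M L : Matrix (Fin m) (Fin m) R}
    (hM : InI (key m a j) M) (hL : InI (key m j b) L) (haj : a < j) (hjb : j < b) :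
    InI (key m a b + 1) (L * M) := by
  intro u v huv
  obtain ⟨s, h1, h2⟩ := exists_of_mul_ne_zero huv
  obtain ⟨hu, hk1⟩ := hL u s h1
  obtain ⟨hv, hk2⟩ := hM s v h2
  refine ⟨hu.trans hv, ?_⟩
  rw [key_le_iff] at hk1 hk2
  rw [key_succ_le_iff]
  simp only [Fin.lt_def] at hu hv haj hjb
  omega

/-- The leading entry of the product. -/
theorem mul_lead_entry {a j b : Fin m} {M L : Matrix (Fin m) (Fin m) R}
    (hM : InI (key m a j) M) (hL : InI (key m j b) L) (haj : a < j) (hjb : j < b) :
    (M * L) a b = M a j * L j b := by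
  rw [Matrix.mul_apply]
  refine Finset.sum_eq_single j ?_ (by simp)
  intro s _ hs
  by_contra hne
  have h1 := hM a s (left_ne_zero_of_mul hne)
  have h2 := hL s b (right_ne_zero_of_mul hne)
  have hk1 := h1.2
  have hk2 := h2.2
  rw [key_le_iff] at hk1 hk2
  apply hs
  simp only [Fin.lt_def] at h1 h2 haj hjb
  apply Fin.ext
  omega

end Matrices

/-- A triangle-free relation on `Fin m` has at most `m² / 4` pairs. -/
theorem card_le_of_triangle_free (T : Finset (Fin m × Fin m)) (h1 : ∀ t ∈ T, t.1 < t.2)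
    (h2 : ∀ a j b, (a, j) ∈ T → (j, b) ∈ T → (a, b) ∉ T) : T.card ≤ m * m / 4 := by
  classical
  let G : SimpleGraph (Fin m) :=
    { Adj := fun u v => (u, v) ∈ T ∨ (v, u) ∈ T
      symm := ⟨fun u v h => Or.symm h⟩
      loopless := ⟨fun u h => by
        rcases h with h | h <;> exact lt_irrefl _ (h1 _ h)⟩ }
  have hfree : G.CliqueFree 3 := by
    intro s hs
    rw [SimpleGraph.is3Clique_iff] at hs
    obtain ⟨a, b, c, hab, hac, hbc, -⟩ := hs
    rcases hab with hab | hab <;> rcases hac with hac | hac <;> rcases hbc with hbc | hbc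
    · exact h2 a b c hab hbc hac
    · exact h2 a c b hac hbc hab
    · have h3 : a < b := h1 _ hab
      have h4 : b < c := h1 _ hbc
      have h5 : c < a := h1 _ hac
      exact lt_irrefl _ (h3.trans (h4.trans h5))
    · exact h2 c a b hac hab hbc
    · exact h2 b a c hab hac hbc
    · have h3 : b < a := h1 _ hab
      have h4 : a < c := h1 _ hac
      have h5 : c < b := h1 _ hbc
      exact lt_irrefl _ (h3.trans (h4.trans h5))
    · exact h2 b c a hbc hac hab
    · exact h2 c b a hbc hab hac
  have hT := SimpleGraph.CliqueFree.card_edgeFinset_le (r := 2) hfree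
  have hcard : T.card ≤ G.edgeFinset.card := by
    refine Finset.card_le_card_of_injOn (fun t => s(t.1, t.2)) ?_ ?_
    · intro t ht
      simp only [Finset.mem_coe, SimpleGraph.mem_edgeFinset, SimpleGraph.mem_edgeSet]
      exact Or.inl ht
    · rintro ⟨a, b⟩ ha ⟨c, d⟩ hc h
      have h3 := h1 _ ha
      have h4 := h1 _ hc
      simp only [Finset.mem_coe] at ha hc
      simp only [Sym2.eq_iff] at h
      rcases h with ⟨rfl, rfl⟩ | ⟨rfl, rfl⟩
      · rfl
      · exact absurd h3 (not_lt.mpr h4.le)
  refine hcard.trans (hT.trans ?_)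
  simp only [Fintype.card_fin]
  have hmod : m % 2 < 2 := Nat.mod_lt _ (by norm_num)
  have hch : (m % 2).choose 2 = 0 := Nat.choose_eq_zero_of_lt hmod
  rw [hch, add_zero]
  show (m ^ 2 - (m % 2) ^ 2) * 1 / 4 ≤ m * m / 4
  rw [mul_one]
  exact Nat.div_le_div_right (by rw [pow_two]; exact Nat.sub_le _ _)

section Main

variable {p : ℕ} [hpf : Fact p.Prime] {X : Type*} [Group X]

/-- A position `(a, b)` is a leading position of an element of `X`. -/
def Lead (A : X →* Matrix (Fin m) (Fin m) (ZMod p)) (a b : Fin m) : Prop :=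
  ∃ x : X, InI (key m a b) (A x - 1) ∧ (A x - 1) a b ≠ 0

theorem map_mul_sub_one (A : X →* Matrix (Fin m) (Fin m) (ZMod p)) (x y : X) :
    A (x * y) - 1 = (A x - 1) + (A y - 1) + (A x - 1) * (A y - 1) := by
  rw [map_mul]
  noncomm_ring

theorem inI_map_mul (A : X →* Matrix (Fin m) (Fin m) (ZMod p)) {w : ℕ} {x y : X}
    (hx : InI w (A x - 1)) (hy : InI w (A y - 1)) (h0 : InI 0 (A y - 1)) :
    InI w (A (x * y) - 1) := by
  rw [map_mul_sub_one]
  exact (hx.add hy).add ((hx.mul_left h0).mono (Nat.le_succ w))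

theorem entry_map_mul (A : X →* Matrix (Fin m) (Fin m) (ZMod p)) {w : ℕ} {x y : X}
    (hx : InI w (A x - 1)) (h0 : InI 0 (A y - 1)) {a b : Fin m} (hk : key m a b = w) :
    (A (x * y) - 1) a b = (A x - 1) a b + (A y - 1) a b := by
  rw [map_mul_sub_one, Matrix.add_apply, Matrix.add_apply, (hx.mul_left h0).eq_zero hk, add_zero]

theorem inI_map_pow (A : X →* Matrix (Fin m) (Fin m) (ZMod p))
    (hA : ∀ x, InI 0 (A x - 1)) {w : ℕ} {x : X} (hx : InI w (A x - 1)) (n : ℕ) :
    InI w (A (x ^ n) - 1) := by
  induction n with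
  | zero => simpa using InI.zero w
  | succ n ih =>
    rw [pow_succ]
    exact inI_map_mul A ih hx (hA x)

theorem entry_map_pow (A : X →* Matrix (Fin m) (Fin m) (ZMod p))
    (hA : ∀ x, InI 0 (A x - 1)) {w : ℕ} {x : X} (hx : InI w (A x - 1)) {a b : Fin m}
    (hk : key m a b = w) (n : ℕ) :
    (A (x ^ n) - 1) a b = (n : ZMod p) * (A x - 1) a b := by
  induction n with
  | zero => simp
  | succ n ih =>
    rw [pow_succ, entry_map_mul A (inI_map_pow A hA hx n) (hA x) hk, ih]
    push_cast
    ring

/-- A commutator of leading elements. -/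
theorem comm_lead (A : X →* Matrix (Fin m) (Fin m) (ZMod p)) (hA : ∀ x, InI 0 (A x - 1))
    {y z : X} {a j b : Fin m} (hy : InI (key m a j) (A y - 1)) (hz : InI (key m j b) (A z - 1))
    (hyne : (A y - 1) a j ≠ 0) (hzne : (A z - 1) j b ≠ 0) :
    InI (key m a b) (A ⁅y, z⁆ - 1) ∧ (A ⁅y, z⁆ - 1) a b ≠ 0 := by
  have haj : a < j := (hA y a j hyne).1
  have hjb : j < b := (hA z j b hzne).1
  set M := A y - 1 with hM
  set L := A z - 1 with hL
  set R₀ := A (z * y)⁻¹ - 1 with hR₀
  have hAy : A y = 1 + M := by rw [hM]; abel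
  have hAz : A z = 1 + L := by rw [hL]; abel
  have hinv : A (z * y) * A (z * y)⁻¹ = 1 := by
    rw [← map_mul, mul_inv_cancel, map_one]
  have hcomm : (⁅y, z⁆ : X) = (y * z) * (z * y)⁻¹ := by
    rw [commutatorElement_def]; group
  set D := M * L - L * M with hD
  have hdiff : A (y * z) - A (z * y) = D := by
    rw [map_mul, map_mul, hAy, hAz, hD]
    noncomm_ring
  have hAinv : A (z * y)⁻¹ = 1 + R₀ := by rw [hR₀]; abel
  have heq : A ⁅y, z⁆ - 1 = D + D * R₀ := by
    have : A ⁅y, z⁆ = A (y * z) * A (z * y)⁻¹ := by rw [hcomm, map_mul]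
    calc A ⁅y, z⁆ - 1 = A (y * z) * A (z * y)⁻¹ - A (z * y) * A (z * y)⁻¹ := by rw [this, hinv]
      _ = (A (y * z) - A (z * y)) * A (z * y)⁻¹ := by noncomm_ring
      _ = D * (1 + R₀) := by rw [hdiff, hAinv]
      _ = D + D * R₀ := by noncomm_ring
  have h1 := InI.mul_lead₁ hy hz haj hjb
  have h2 := InI.mul_lead₂ hy hz haj hjb
  have hDI : InI (key m a b) D := h1.sub (h2.mono (Nat.le_succ _))
  have hDR : InI (key m a b + 1) (D * R₀) := hDI.mul_left (hA _)
  refine ⟨?_, ?_⟩
  · rw [heq]
    exact hDI.add (hDR.mono (Nat.le_succ _))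
  · rw [heq, Matrix.add_apply, hDR.eq_zero rfl, add_zero, hD, Matrix.sub_apply,
      h2.eq_zero rfl, sub_zero, mul_lead_entry hy hz haj hjb]
    exact mul_ne_zero hyne hzne

/-- The generator count modulo the kernel, for unitriangular representations. -/
theorem exists_generators_mod_ker [Finite X] (hX : IsPGroup p X)
    (A : X →* Matrix (Fin m) (Fin m) (ZMod p)) (hA : ∀ x, InI 0 (A x - 1))
    (K : Subgroup X) (hK : ∀ x, A x = 1 → x ∈ K) :
    ∃ S : Finset X, S.card ≤ m * m / 4 ∧ closure (S : Set X) ⊔ K = ⊤ := by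
  classical
  let T : Finset (Fin m × Fin m) := Finset.univ.filter
    (fun t => t.1 < t.2 ∧ Lead A t.1 t.2 ∧ ¬ ∃ j, Lead A t.1 j ∧ Lead A j t.2)
  have hTmem : ∀ a b, (a, b) ∈ T ↔ a < b ∧ Lead A a b ∧ ¬ ∃ j, Lead A a j ∧ Lead A j b := by
    intro a b
    simp [T]
  have hTcard : T.card ≤ m * m / 4 := by
    apply card_le_of_triangle_free
    · intro t ht
      exact (Finset.mem_filter.mp ht).2.1
    · intro a j b h1 h2 h3
      have h1' := (hTmem _ _).mp h1
      have h2' := (hTmem _ _).mp h2
      have h3' := (hTmem _ _).mp h3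
      exact h3'.2.2 ⟨j, h1'.2.1, h2'.2.1⟩
  have hchoice : ∀ t : Fin m × Fin m, ∃ x : X, Lead A t.1 t.2 →
      (InI (key m t.1 t.2) (A x - 1) ∧ (A x - 1) t.1 t.2 ≠ 0) := by
    intro t
    by_cases h : Lead A t.1 t.2
    · obtain ⟨x, hx⟩ := h
      exact ⟨x, fun _ => hx⟩
    · exact ⟨1, fun h' => absurd h' h⟩
  choose f hf using hchoice
  refine ⟨T.image f, Finset.card_image_le.trans hTcard, ?_⟩
  set L₀ := closure ((T.image f : Finset X) : Set X) ⊔ K with hL₀
  set L := L₀ ⊔ frattini X with hL
  have hlead : ∀ a b : Fin m, Lead A a b → ∃ t ∈ L, InI (key m a b) (A t - 1) ∧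
      (A t - 1) a b ≠ 0 := by
    intro a b hab
    by_cases hj : ∃ j, Lead A a j ∧ Lead A j b
    · obtain ⟨j, ⟨y, hy, hyne⟩, ⟨z, hz, hzne⟩⟩ := hj
      refine ⟨⁅y, z⁆, ?_, comm_lead A hA hy hz hyne hzne⟩
      apply mem_sup_right
      exact Cfsg.Agent.Lib.PGroups.Basic.commutator_le_frattini hX
        (commutator_mem_commutator (mem_top y) (mem_top z))
    · have hlt : a < b := by
        obtain ⟨x, -, hx⟩ := hab
        exact (hA x a b hx).1
      have hmem : (a, b) ∈ T := (hTmem a b).mpr ⟨hlt, hab, hj⟩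
      refine ⟨f (a, b), ?_, hf (a, b) hab⟩
      apply mem_sup_left
      apply mem_sup_left
      apply Subgroup.subset_closure
      simp only [Finset.coe_image]
      exact ⟨_, hmem, rfl⟩
  have hdesc : ∀ d w : ℕ, w + d = (m + 1) * (m + 1) → ∀ x : X, InI w (A x - 1) → x ∈ L := by
    intro d
    induction d with
    | zero =>
      intro w hw x hx
      apply mem_sup_left
      apply mem_sup_right
      apply hK
      have : A x - 1 = 0 := by
        ext a b
        by_contra hne
        have := (hx a b hne).2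
        have h2 := key_lt a b
        simp only [add_zero] at hw
        omega
      exact sub_eq_zero.mp this
    | succ d ih =>
      intro w hw x hx
      have ih' := ih (w + 1) (by omega)
      by_cases hent : ∃ a b : Fin m, key m a b = w ∧ (A x - 1) a b ≠ 0
      · obtain ⟨a, b, hk, hne⟩ := hent
        have hlt : a < b := (hA x a b hne).1
        have hLead : Lead A a b := ⟨x, hk ▸ hx, hne⟩
        obtain ⟨t, htL, htI, htne⟩ := hlead a b hLead
        rw [hk] at htI
        set α := (A x - 1) a b with hα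
        set β := (A t - 1) a b with hβ
        let n : ℕ := (-α / β).val
        have hn : (n : ZMod p) = -α / β := ZMod.natCast_zmod_val _
        have hI := inI_map_mul A hx (inI_map_pow A hA htI n) (hA _)
        have hent0 : (A (x * t ^ n) - 1) a b = 0 := by
          rw [entry_map_mul A hx (hA _) hk, entry_map_pow A hA htI hk, hn, ← hα, ← hβ]
          field_simp
          ring
        have hI' : InI (w + 1) (A (x * t ^ n) - 1) := by
          intro c e hce
          obtain ⟨hlt', hw'⟩ := hI c e hce
          refine ⟨hlt', ?_⟩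
          rcases Nat.lt_or_ge w (key m c e) with h | h
          · exact h
          · exfalso
            have hke : key m c e = key m a b := by omega
            have h1 : key m c e ≤ key m a b := hke.le
            have h2 : key m a b ≤ key m c e := hke.ge
            rw [key_le_iff] at h1 h2
            simp only [Fin.lt_def] at hlt' hlt
            have hca : c = a := by apply Fin.ext; omega
            have heb : e = b := by apply Fin.ext; omega
            subst hca heb
            exact hce hent0
        have h1 := ih' _ hI'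
        have h2 : t ^ n ∈ L := pow_mem htL n
        have : x = x * t ^ n * (t ^ n)⁻¹ := by group
        rw [this]
        exact mul_mem h1 (inv_mem h2)
      · push Not at hent
        apply ih'
        intro a b hab
        obtain ⟨hlt, hw'⟩ := hx a b hab
        refine ⟨hlt, ?_⟩
        rcases Nat.lt_or_ge w (key m a b) with h | h
        · exact h
        · exact absurd (hent a b (le_antisymm h hw')) hab
  have htop : L₀ ⊔ frattini X = ⊤ := by
    rw [eq_top_iff]
    intro x _
    exact hdesc ((m + 1) * (m + 1)) 0 (by ring) x (hA x)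
  exact frattini_nongenerating htop

end Main

section Flag

variable {p : ℕ} [hpf : Fact p.Prime] {X : Type*} [Group X]

/-- A `p`-group acting linearly on a finite `𝔽_p`-space stabilizes a flag. -/
theorem exists_flag_basis [Finite X] (hX : IsPGroup p X) (n : ℕ) :
    ∀ (V : Type _) [AddCommGroup V] [Module (ZMod p) V] [Finite V]
      (ρ : X →* (V →ₗ[ZMod p] V)), Module.finrank (ZMod p) V = n →
      ∃ b : Module.Basis (Fin n) (ZMod p) V, ∀ x j,
        ρ x (b j) - b j ∈ Submodule.span (ZMod p) (b '' {k | j < k}) := by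
  induction n with
  | zero =>
    intro V _ _ _ ρ hV
    haveI : Module.Finite (ZMod p) V := Module.Finite.of_finite
    exact ⟨Module.finBasisOfFinrankEq (ZMod p) V hV, fun x j => j.elim0⟩
  | succ n ih =>
    intro V _ _ _ ρ hV
    classical
    haveI : Module.Finite (ZMod p) V := Module.Finite.of_finite
    -- a fixed nonzero functional
    letI act : MulAction X (Module.Dual (ZMod p) V) :=
      { smul := fun x f => f.comp (ρ x⁻¹)
        one_smul := by
          intro f
          show f.comp (ρ 1⁻¹) = f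
          ext v
          simp
        mul_smul := by
          intro x y f
          show f.comp (ρ (x * y)⁻¹) = (f.comp (ρ y⁻¹)).comp (ρ x⁻¹)
          ext v
          simp [mul_inv_rev, Module.End.mul_apply] }
    haveI : Finite (Module.Dual (ZMod p) V) := by
      exact Module.finite_of_finite (ZMod p)
    have hcard : p ∣ Nat.card (Module.Dual (ZMod p) V) := by
      rw [Module.natCard_eq_pow_finrank (K := ZMod p), Subspace.dual_finrank_eq, hV,
        Nat.card_eq_fintype_card, ZMod.card]
      exact dvd_pow_self p (Nat.succ_ne_zero n)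
    have h0 : (0 : Module.Dual (ZMod p) V) ∈
        MulAction.fixedPoints X (Module.Dual (ZMod p) V) := by
      intro x
      show (0 : Module.Dual (ZMod p) V).comp (ρ x⁻¹) = 0
      simp
    obtain ⟨f, hf, hf0⟩ := hX.exists_fixed_point_of_prime_dvd_card_of_fixed_point _ hcard h0
    have hfx : ∀ (x : X) (v : V), f (ρ x v) = f v := by
      intro x v
      have h1 : f.comp (ρ x⁻¹⁻¹) = f := hf x⁻¹
      have h2 := LinearMap.congr_fun h1 v
      simpa using h2
    have hfne : f ≠ 0 := fun h => hf0 h.symm
    obtain ⟨y, hy⟩ : ∃ y, f y ≠ 0 := by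
      by_contra hcon
      push Not at hcon
      exact hfne (LinearMap.ext hcon)
    set N := LinearMap.ker f with hN
    have hNrank : Module.finrank (ZMod p) N = n := by
      have := Module.Dual.finrank_ker_add_one_of_ne_zero hfne
      rw [← hN] at this
      omega
    have hNinv : ∀ (x : X), ∀ v ∈ N, ρ x v ∈ N := by
      intro x v hv
      rw [hN, LinearMap.mem_ker] at hv ⊢
      rw [hfx, hv]
    let ρ' : X →* (N →ₗ[ZMod p] N) :=
      { toFun := fun x => (ρ x).restrict (hNinv x)
        map_one' := by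
          ext v
          simp
        map_mul' := by
          intro a b
          ext v
          simp [Module.End.mul_apply] }
    obtain ⟨b', hb'⟩ := ih N ρ' hNrank
    have hli : ∀ (c : ZMod p), ∀ x ∈ N, c • y + x = 0 → c = 0 := by
      intro c x hx hc
      have h1 := congrArg f hc
      rw [map_add, map_smul, (LinearMap.mem_ker.mp hx), add_zero, map_zero, smul_eq_mul] at h1
      exact (mul_eq_zero.mp h1).resolve_right hy
    have hsp : ∀ z : V, ∃ c : ZMod p, z + c • y ∈ N := by
      intro z
      refine ⟨-(f z) / f y, ?_⟩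
      rw [hN, LinearMap.mem_ker, map_add, map_smul, smul_eq_mul]
      field_simp
      ring
    refine ⟨Module.Basis.mkFinCons y b' hli hsp, ?_⟩
    have hcoe : ((Module.Basis.mkFinCons y b' hli hsp : Module.Basis (Fin (n + 1)) (ZMod p) V) :
        Fin (n + 1) → V) = Fin.cons y ((↑) ∘ b') := Module.Basis.coe_mkFinCons y b' hli hsp
    set b := Module.Basis.mkFinCons y b' hli hsp with hb
    have hb0 : b 0 = y := by rw [hcoe]; rfl
    have hbs : ∀ k : Fin n, b k.succ = (b' k : V) := by
      intro k
      rw [hcoe]; rfl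
    intro x j
    refine Fin.cases ?_ ?_ j
    · -- the first vector
      rw [hb0]
      have hmem : ρ x y - y ∈ N := by
        rw [hN, LinearMap.mem_ker, map_sub, hfx, sub_self]
      have hNle : N ≤ Submodule.span (ZMod p) (b '' {k | (0 : Fin (n + 1)) < k}) := by
        intro w hw
        have h1 : (⟨w, hw⟩ : N) ∈ Submodule.span (ZMod p) (Set.range b') := by
          rw [b'.span_eq]; exact Submodule.mem_top
        have h2 := Submodule.mem_map_of_mem (f := N.subtype) h1
        rw [Submodule.map_span] at h2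
        refine Submodule.span_mono ?_ h2
        rintro _ ⟨_, ⟨k, rfl⟩, rfl⟩
        exact ⟨k.succ, Fin.succ_pos k, hbs k⟩
      exact hNle hmem
    · intro j'
      rw [hbs]
      have h1 := hb' x j'
      have h2 := Submodule.mem_map_of_mem (f := N.subtype) h1
      rw [Submodule.map_span] at h2
      have h3 : N.subtype (ρ' x (b' j') - b' j') = ρ x (b' j') - (b' j' : V) := rfl
      rw [h3] at h2
      refine Submodule.span_mono ?_ h2
      rintro _ ⟨_, ⟨k, hk, rfl⟩, rfl⟩
      exact ⟨k.succ, Fin.succ_lt_succ_iff.mpr hk, hbs k⟩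

/-- A linear representation of a `p`-group on a finite `𝔽_p`-space is unitriangular. -/
theorem exists_matrix_rep [Finite X] (hX : IsPGroup p X) {V : Type _} [AddCommGroup V]
    [Module (ZMod p) V] [Finite V] (ρ : X →* (V →ₗ[ZMod p] V)) (n : ℕ)
    (hn : Module.finrank (ZMod p) V = n) :
    ∃ A : X →* Matrix (Fin n) (Fin n) (ZMod p), (∀ x, InI 0 (A x - 1)) ∧ ∀ x, A x = 1 → ρ x = 1 := by
  classical
  obtain ⟨b, hb⟩ := exists_flag_basis hX n V ρ hn
  set b' := b.reindex Fin.revPerm with hb'
  have hb'apply : ∀ j, b' j = b (Fin.rev j) := by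
    intro j
    simp [hb', Module.Basis.reindex_apply, Fin.revPerm]
  let A : X →* Matrix (Fin n) (Fin n) (ZMod p) :=
    { toFun := fun x => LinearMap.toMatrixAlgEquiv b' (ρ x)
      map_one' := by simp
      map_mul' := by intro x y; simp [map_mul] }
  refine ⟨A, ?_, ?_⟩
  · intro x a c hac
    have hmem : ρ x (b' c) - b' c ∈ Submodule.span (ZMod p) (b' '' {l | l < c}) := by
      have := hb x (Fin.rev c)
      rw [hb'apply]
      refine Submodule.span_mono ?_ this
      rintro _ ⟨k, hk, rfl⟩
      refine ⟨Fin.rev k, ?_, ?_⟩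
      · simp only [Set.mem_ofPred_eq] at hk ⊢
        exact Fin.rev_lt_iff.mpr hk
      · rw [hb'apply, Fin.rev_rev]
    rw [Module.Basis.mem_span_image] at hmem
    have hentry : (A x - 1) a c = b'.repr (ρ x (b' c) - b' c) a := by
      rw [Matrix.sub_apply, map_sub, Finsupp.sub_apply]
      congr 1
      · exact LinearMap.toMatrixAlgEquiv_apply b' (ρ x) a c
      · rw [Module.Basis.repr_self, Matrix.one_apply, Finsupp.single_apply]
        by_cases h : a = c
        · simp [h]
        · simp [h, Ne.symm h]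
    have hsupp : a ∈ ((b'.repr (ρ x (b' c) - b' c)).support : Set (Fin n)) := by
      simp only [Finset.mem_coe, Finsupp.mem_support_iff]
      rwa [← hentry]
    exact ⟨hmem hsupp, Nat.zero_le _⟩
  · intro x hx
    have h1 : LinearMap.toMatrixAlgEquiv b' (ρ x) = LinearMap.toMatrixAlgEquiv b' 1 := by
      rw [map_one]
      exact hx
    exact (LinearMap.toMatrixAlgEquiv b').injective h1

/-- Generator count modulo the kernel of a linear action of a `p`-group. -/
theorem exists_generators_mod_ker_linear [Finite X] (hX : IsPGroup p X) {V : Type _}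
    [AddCommGroup V] [Module (ZMod p) V] [Finite V] (ρ : X →* (V →ₗ[ZMod p] V))
    (K : Subgroup X) (hK : ∀ x, ρ x = 1 → x ∈ K) :
    ∃ S : Finset X, S.card ≤ Module.finrank (ZMod p) V * Module.finrank (ZMod p) V / 4 ∧
      closure (S : Set X) ⊔ K = ⊤ := by
  obtain ⟨A, hA, hker⟩ := exists_matrix_rep hX ρ _ rfl
  exact exists_generators_mod_ker hX A hA K (fun x hx => hK x (hker x hx))

end Flag

end Cfsg.Agent.Lib.PCentral.Patterson
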